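import Mathlib
import Cfsg.Agent.H26.Bk22

/-!
# Pushing up with an odd order group of automorphisms

`TI`, `TI.au`, `TI.sup`, `TI.uniq`, `ac`, `TI.odd`, `OB`, `OB.ex`, `BC.ob_lin`, `BC.ob_pm`, `odd_aut`.
-/

namespace H26
open Cfsg H17 H09 H24 H01 Equiv
open scoped commutatorElement Pointwise BG MatrixGroups

variable {G : Type*} [Group G] {p q n : ℕ} {H T A B D E K M R S U U' U'' C X Y W : Subgroup G} {a b d e g u v z : G}

/-- `U` is acted on by `B` like a natural module by a Sylow subgroup -/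
structure TI (B U : Subgroup G) (q : ℕ) : Prop where
  UB : U ≤ B
  nU : B ≤ N_(U)
  ab : U ≤ C_(U)
  sq : ∀ u ∈ U, u * u = 1
  ti : ∀ w ∈ U, ∀ b ∈ B, ⁅b, w⁆ = 1 → b ∈ C_(U) ∨ w ∈ C_(B)
  i1 : C_(U).relIndex B ≤ q
  i2 : q ≤ C_(B).relIndex U

theorem TI.au (h : TI B U q) {f : T →* G} (a : Au T f) (BT : B ≤ T) (e : im f B = B) : TI B (im f U) q := by
  have UT := h.UB.trans BT
  refine ⟨(im_mono h.UB).trans e.le, e.ge.trans (im_le_normalizer h.nU), im_le_centralizer h.ab, ?_, ?_, ?_, ?_⟩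
  · rintro _ ⟨x, hx, rfl⟩
    rw [← map_mul, show x * x = 1 from Subtype.ext (h.sq x hx), map_one]
  · rintro _ ⟨w, hw, rfl⟩ b hb k
    obtain ⟨y, hy, rfl⟩ := e.ge hb
    rw [← map_commutatorElement, map_eq_one_iff f a.1] at k
    exact (h.ti w hw y hy (congrArg Subtype.val k)).imp (a.cent UT y).mpr fun k => e ▸ (a.cent BT w).mpr k
  · rw [← Subgroup.inf_relIndex_left, ← e, ← a.inf_cent BT UT, a.relIndex (inf_le_left.trans BT) BT,
      Subgroup.inf_relIndex_left]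
    exact h.i1
  · rw [← Subgroup.inf_relIndex_left, ← e, ← a.inf_cent UT BT, a.relIndex (inf_le_left.trans UT) UT,
      Subgroup.inf_relIndex_left]
    exact h.i2

theorem TI.inf (h' : TI B U' q) (h1 : U ≤ B) (n : ¬ U' ≤ C_(U)) (hx : a ∈ U') (k : a ∈ C_(U)) : a ∈ C_(B) := by
  obtain ⟨w, hw, l⟩ := SetLike.not_le_iff_exists.mp fun a => n (cent_symm' a)
  exact (h'.ti a hx w (h1 hw) (comm_one_of k hw)).resolve_left l

theorem TI.nD (h : TI B U q) : B ≤ N_(B ⊓ C_(U)) :=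
  le_normalizer_inf Subgroup.le_normalizer (le_normalizer_centralizer h.nU)

variable [Finite G]

theorem TI.sup (h : TI B U q) (h' : TI B U' q) (n : ¬ U' ≤ C_(U)) : B ≤ U' ⊔ (B ⊓ C_(U)) := by
  refine sup_of_relIndex h'.UB (h.i1.trans (h'.i2.trans ?_))
  rw [← Subgroup.inf_relIndex_left U' C_(U)]
  exact Subgroup.relIndex_le_of_le_left (fun a ha => h'.inf h.UB n ha.1 ha.2) Subgroup.index_ne_zero_of_finite

theorem TI.dec (h : TI B U q) (h' : TI B U' q) (n : ¬ U' ≤ C_(U)) (hb : b ∈ B) : ∃ u ∈ U', ∃ d ∈ B ⊓ C_(U), u * d = b :=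
  (mem_sup_of_le_normalizer (h'.UB.trans h.nD)).mp (h.sup h' n hb)

theorem TI.uniq (h : TI B U q) (h' : TI B U' q) (h'' : TI B U'' q) (n' : ¬ U' ≤ C_(U)) (n'' : ¬ U'' ≤ C_(U))
    (c1 : ∀ d ∈ B ⊓ C_(U), d * d ∈ C) (c2 : ⁅B ⊓ C_(U), B ⊓ C_(U)⁆ ≤ C)
    (c3 : ∀ w ∈ U, ∀ b ∈ B, ⁅b, w⁆ ∈ C → b ∈ C_(U) ∨ w ∈ C_(B)) : B ⊓ C_(U'') ≤ C_(U') := by
  intro y hy
  obtain ⟨x, hx, d, hd, rfl⟩ := h.dec h'' n'' hy.1
  refine mul_mem ?_ ?_
  · obtain ⟨w', hw', d, hd, rfl⟩ := h.dec h' n' (h''.UB hx)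
    obtain ⟨w, hw, k, hk, rfl⟩ := h'.dec h (fun a => n' (cent_symm' a)) hd.1
    have kU : k ∈ C_(U) := (mul_mem_cancel_left (h.ab hw)).mp hd.2
    have e : ⁅w', w⁆ = (k * k)⁻¹ := by
      rw [eq_inv_iff_mul_eq_one, ← h''.sq _ hx, commutatorElement_def, inv_eq_of_mul_eq_one_right (h'.sq _ hw'),
        inv_eq_of_mul_eq_one_right (h.sq _ hw)]
      calc _ = w' * w * (w' * w * k) * k := by group
        _ = w' * w * (k * w' * w) * k := by rw [mul_assoc w' w k, kU w hw, ← mul_assoc w' k, hk.2 w' hw']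
        _ = _ := by group
    rcases c3 w hw w' (h'.UB hw') (e ▸ inv_mem (c1 k ⟨hk.1, kU⟩)) with a | a
    · exact centralizer_anti h'.UB (h''.inf h.UB n'' hx (mul_mem a hd.2))
    · exact mul_mem (h'.ab hw') (mul_mem (centralizer_anti h'.UB a) hk.2)
  · have dU : d ∈ C_(U'') := (mul_mem_cancel_left (h''.ab hx)).mp hy.2
    obtain ⟨w, hw, k, hk, rfl⟩ := h'.dec h (fun a => n' (cent_symm' a)) hd.1
    obtain ⟨v, hv, l⟩ := SetLike.not_le_iff_exists.mp n'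
    obtain ⟨r, hr, u, hu, rfl⟩ := (mem_sup_of_le_normalizer' (h''.UB.trans h.nD)).mp (sup_comm U'' _ ▸ h.sup h'' n'' (h'.UB hv))
    refine mul_mem (centralizer_anti h'.UB ((c3 w hw _ (h'.UB hv) (comm_symm_mem ?_)).resolve_left l)) hk.2
    have e := comm_mul_left w k (r * u)
    rw [comm_one_of' hk.2 hv, comm_mul_right, comm_one_of' dU hu] at e
    simp only [mul_one, mul_inv_cancel, one_mul] at e
    exact e ▸ c2 (Subgroup.commutator_mem_commutator hd hr)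

omit [Finite G] in
/-- image of a subgroup under an automorphism of `T` -/
def ac (θ : MulAut T) (X : Subgroup G) : Subgroup G := im (T.subtype.comp θ.toMonoidHom) X

omit [Finite G] in
theorem ac_mul (θ φ : MulAut T) (X : Subgroup G) : ac (θ * φ) X = ac θ (ac φ X) := Subgroup.ext fun _ =>
  ⟨by rintro ⟨y, hy, rfl⟩; exact ⟨φ y, ⟨y, hy, rfl⟩, rfl⟩, by
    rintro ⟨y, ⟨z, hz, e⟩, rfl⟩; exact ⟨z, hz, congrArg (fun x => (θ x : G)) (Subtype.ext e)⟩⟩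

omit [Finite G] in
theorem ac_conj (s : T) (h : X ≤ T) : ac (MulAut.conj s) X = cj((s : G), X) := Subgroup.ext fun _ =>
  ⟨by rintro ⟨y, hy, rfl⟩; exact ⟨y, hy, rfl⟩, by rintro ⟨y, hy, rfl⟩; exact ⟨⟨y, h hy⟩, hy, rfl⟩⟩

omit [Finite G] in
theorem ac_one (h : X ≤ T) : ac (1 : MulAut T) X = X := by rw [← map_one MulAut.conj, ac_conj 1 h, Subgroup.coe_one, cj_one]

theorem TI.odd (h : TI B U q) (BT : B ≤ T) (hB : (B.subgroupOf T).Characteristic)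
    (c1 : ∀ d ∈ B ⊓ C_(U), d * d ∈ C) (c2 : ⁅B ⊓ C_(U), B ⊓ C_(U)⁆ ≤ C)
    (c3 : ∀ w ∈ U, ∀ b ∈ B, ⁅b, w⁆ ∈ C → b ∈ C_(U) ∨ w ∈ C_(B)) (c4 : ∀ s ∈ T, cj(s, U) ≤ C_(U)) {θ : MulAut T} {m : ℕ}
    (hm : Odd m) {s : T} (e : θ ^ m = MulAut.conj s) : ac θ U ≤ C_(U) := by
  by_contra n
  have UT := h.UB.trans BT
  have eB : ∀ θ : MulAut T, ac θ B = B := fun θ => by
    rw [ac, im, ← Subgroup.map_map, Subgroup.characteristic_iff_map_eq.mp hB, Subgroup.map_subgroupOf_eq_of_le BT]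
  have t : ∀ θ : MulAut T, TI B (ac θ U) q := fun θ => h.au (au_of θ) BT (eB θ)
  have k : ∀ θ : MulAut T, ac θ (B ⊓ C_(U)) = B ⊓ C_(ac θ U) := fun θ => ((au_of θ).inf_cent BT UT).trans (congrArg (· ⊓ _) (eB θ))
  have n' : ¬ ac θ⁻¹ U ≤ C_(U) := fun a => n (cent_symm' (by
    have := im_le_centralizer (f := T.subtype.comp θ.toMonoidHom) a
    change ac θ _ ≤ _ at this
    rwa [← ac_mul, mul_inv_cancel, ac_one UT] at this))
  have e1 : ac (θ * θ) (B ⊓ C_(U)) = B ⊓ C_(U) := by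
    rw [ac_mul, k, le_antisymm (le_inf inf_le_left (h.uniq (t _) (t _) n' n c1 c2 c3))
      (le_inf inf_le_left (h.uniq (t _) (t _) n n' c1 c2 c3)), ← k, ← ac_mul, mul_inv_cancel, ac_one (inf_le_left.trans BT)]
  have e2 : ∀ j : ℕ, ac (θ ^ (2 * j + 1)) (B ⊓ C_(U)) = ac θ (B ⊓ C_(U)) := fun j => by
    induction j with
    | zero => simp
    | succ j ih => rw [show 2 * (j + 1) + 1 = 2 * j + 1 + 2 by ring, pow_add, pow_two, ac_mul, e1, ih]
  obtain ⟨j, rfl⟩ := hm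
  have := e2 j
  rw [e, k, k, ac_conj s UT] at this
  exact n (cent_symm' ((le_inf h.UB (cent_symm' (c4 s s.2))).trans (this.le.trans inf_le_right)))

/-- the data extracted from a block -/
structure OB (T B M U E : Subgroup G) (q : ℕ) : Prop where
  UB : U ≤ B
  nU : B ≤ N_(U)
  sq : ∀ u ∈ U, u * u = 1
  i1 : C_(U).relIndex B ≤ q
  i2 : q ≤ C_(B).relIndex U
  ne : U ≠ ⊥
  nM : ¬ E ≤ M
  cD : ⁅B ⊓ C_(U), E⁆ ≤ U
  c3 : ∀ w ∈ U, ∀ b ∈ B, ⁅b, w⁆ ∈ C_(E) → b ∈ C_(U) ∨ w ∈ C_(B)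
  c4 : ∀ s ∈ T, cj(s, U) ≤ C_(U)

theorem OB.ex (h : OB T B M U E q) (BT : B ≤ T) (hB : (B.subgroupOf T).Characteristic) (um : UMax T ⊤ M)
    (A : Subgroup (MulAut T)) (hA : Odd (Nat.card A)) :
    ∃ X : Subgroup G, X ≠ ⊥ ∧ X.Normal ∧ X ≤ T ∧ ∀ a ∈ A, ∀ x : T, (x : G) ∈ X → (a x : G) ∈ X := by
  have t : TI B U q := ⟨h.UB, h.nU, (cj_one U).ge.trans (h.c4 1 (one_mem _)), h.sq,
    fun w hw b hb k => h.c3 w hw b hb (k ▸ one_mem _), h.i1, h.i2⟩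
  have UT := h.UB.trans BT
  have cc : ⁅⁅B ⊓ C_(U), E⁆, B ⊓ C_(U)⁆ = ⊥ := commutator_eq_bot_iff'.mpr (inf_le_right.trans (centralizer_anti h.cD))
  let I := (MulAut.conj : T →* MulAut T).range
  have nI : I.Normal := ⟨by rintro _ ⟨x, rfl⟩ φ; exact ⟨φ x, by ext; simp⟩⟩
  let X : Subgroup T := ⨆ θ : ↥(A ⊔ I), (U.subgroupOf T).map θ.1.toMonoidHom
  have inv : ∀ φ ∈ A ⊔ I, ∀ x ∈ X, φ x ∈ X := fun φ a => Subgroup.map_le_iff_le_comap.mp (show X.map φ.toMonoidHom ≤ X by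
    rw [Subgroup.map_iSup]
    exact iSup_le fun θ => le_iSup_of_le (⟨φ, a⟩ * θ) (by rw [Subgroup.map_map]; rfl))
  have UX : U ≤ X.map T.subtype := fun u hu => ⟨⟨u, UT hu⟩, (le_iSup_of_le (f := fun θ : ↥(A ⊔ I) =>
    (U.subgroupOf T).map θ.1.toMonoidHom) 1 (Subgroup.map_id _).ge : _ ≤ X) hu, rfl⟩
  have XD : X.map T.subtype ≤ B ⊓ C_(U) := by
    rw [Subgroup.map_iSup]
    refine iSup_le fun θ => le_inf ((Subgroup.map_mono ((Subgroup.map_mono (Subgroup.comap_mono h.UB)).trans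
      (Subgroup.characteristic_iff_map_le.mp hB _))).trans (Subgroup.map_comap_le _ _)) ?_
    obtain ⟨a, ha, i, hi, e⟩ := Subgroup.mem_sup_of_normal_right.mp θ.2
    obtain ⟨s, k⟩ : θ.1 ^ Nat.card A ∈ I := by
      rw [← QuotientGroup.eq_one_iff, QuotientGroup.mk_pow, ← e, QuotientGroup.mk_mul, (QuotientGroup.eq_one_iff i).mpr hi,
        mul_one, ← QuotientGroup.mk_pow, show a ^ Nat.card A = 1 from congrArg Subtype.val (pow_card_eq_one' (x := (⟨a, ha⟩ : A))),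
        QuotientGroup.mk_one]
    rw [Subgroup.map_map]
    refine t.odd (C := C_(E)) BT hB (fun d hd e he => commutatorElement_eq_one_iff_mul_comm.mp ?_)
      (Subgroup.le_centralizer_iff.mp (commutator_eq_bot_iff'.mp (Subgroup.commutator_commutator_eq_bot_of_rotate cc
        (by rwa [Subgroup.commutator_comm E])))) h.c3 h.c4 hA k.symm
    have m := comm_symm_mem (h.cD (Subgroup.commutator_mem_commutator hd he))
    rw [comm_mul_right, cj_eq_of' hd.2 m, h.sq _ m]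
  refine ⟨X.map T.subtype, fun a => h.ne (eq_bot_iff.mpr (UX.trans a.le)), Subgroup.normalizer_eq_top_iff.mp (top_le_iff.mp
    (by_contra fun a => h.nM ((le_normalizer_of_commutator_le ((Subgroup.commutator_mono XD le_rfl).trans (h.cD.trans UX))).trans
      (um.le_of_not_le (le_normalizer_iff_cj.mpr fun g hg => ?_) le_top a)))), Subgroup.map_subtype_le _, fun a ha x hx =>
    ⟨_, inv a (Subgroup.mem_sup_left ha) x ((Subgroup.mem_map_iff_mem T.subtype_injective).mp hx), rfl⟩⟩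
  rintro _ ⟨_, ⟨x, hx, rfl⟩, rfl⟩
  exact ⟨_, inv _ (Subgroup.mem_sup_right ⟨⟨g, hg⟩, rfl⟩) x hx, rfl⟩

theorem BC.ob_lin {F : Type} [Field F] [Fintype F] [CharP F 2] (h : BC 2 H T B E R Y W) (n : ¬ E ≤ M)
    (c : CS F (commutator SL(2, F)) E W (W ⊓ C_(E))) : OB T B M W E (Nat.card F) := by
  obtain ⟨c, l, l'⟩ := h.lin c
  choose! s hs using fun b (hb : b ∈ B) => h.as_up c l hb
  have k : ∀ w ∈ W, ∀ b ∈ B, ⁅b, w⁆ ∈ C_(E) → s b = 0 ∨ w ∈ c.ln := fun w hw b hb k => by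
    have := congrFun (hs b hb w hw) 0
    rw [(c.comm_iff (h.JN hb).2 hw).mp ⟨commutatorElement_mem_of_mem_normalizer (h.JN hb).2 hw, k⟩] at this
    exact (by simpa [SL.mv_apply] using this : s b = 0 ∨ c.π w 1 = 0).imp_right fun a => ⟨hw, a⟩
  refine ⟨h.WB, h.JN.trans inf_le_right, fun u hu => (pow_two u).symm.trans (h.elW.2 u hu), ?_, ?_, h.W_ne, n,
    (h.comm_C (inf_le_left.trans h.BN) inf_le_right).trans (h.RW2 rfl).le, fun w hw b hb a => (k w hw b hb a).imp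
      (fun e => h.mi.cent1 (h.JN hb).1 (h.JN hb).2 fun w hw => ((Crd.As.one_iff (c := c) (h.JN hb).2).mp
        (by simpa [e, up_zero] using hs b hb) w hw).2) fun a => cent_symm' l a, fun t ht =>
    (cj_le_of_le_of_mem_normalizer h.WV (le_normalizer_omegaZ (le_normalizer_pCoreOf H) (h.syl.le ht))).trans
      ((omegaZ_le _).trans h.QW)⟩
  · simpa using (relIndex_le_of (s := Set.univ) s (fun _ _ => trivial) fun a ha b hb e =>
      h.mi.as_cent (hs a ha) (e ▸ hs b hb) (h.JN ha) (h.JN hb)).1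
  · obtain ⟨a, ha, a1⟩ := l' 1
    have e := relIndex_mul_card (inf_le_left : W ⊓ C_(B) ≤ W)
    rw [c.card_sl, Subgroup.inf_relIndex_left] at e
    refine Nat.le_of_mul_le_mul_right ?_ (Nat.mul_pos (Nat.card_pos (α := F)) (Nat.card_pos (α := ↥(W ⊓ C_(E)))))
    rw [← mul_assoc, ← e]
    refine Nat.mul_le_mul_left _ ((Subgroup.card_le_of_le fun w hw => ?_).trans c.card_ln)
    refine (k w hw.1 a ha (comm_one_of hw.2 ha ▸ one_mem _)).resolve_left fun f => one_ne_zero (up_injective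
      (((hs a ha).uniq a1).symm.trans (congrArg _ f)))

theorem BC.ob_pm {c : CP n (alternatingGroup (Fin n)) E W (W ⊓ C_(E))} {w : Fin n → G} {ι : Fin n → Fin n} {ω j : Fin n}
    (h : BM 2 H T B M E R Y W) (k : PB c w (thompsonSubgroupOf 2 T) B ι ω) (n0 : ¬ E ≤ M) (hj : j ≠ ω) :
    ∃ U E, OB T B M U E 2 := by
  obtain ⟨τ, t0, t1, t2, t3, t4⟩ := Pm.three (k.ne hj) hj (k.ne' hj)
  obtain ⟨f, hf, rfl⟩ := k.ro t0.mem_alternatingGroup
  have fN := k.mi.EN hf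
  have f3 : f ^ 3 ∈ W := (h.RW2 rfl).le (h.kerC ⟨pow_mem hf 3, (k.cent_iff (pow_mem fN 3)).mpr (by
    rw [k.pow fN, ← t0.orderOf, pow_orderOf_eq_one])⟩)
  obtain ⟨e, ee⟩ : ∃ e, e = f ^ 4 := ⟨_, rfl⟩
  have he : e ∈ E := ee ▸ pow_mem hf 4
  have eN := k.mi.EN he
  have e1 : c.pr e = c.pr f := by rw [ee, k.pow fN, pow_succ, ← t0.orderOf, pow_orderOf_eq_one, one_mul]
  have e3 : e ^ 3 = 1 := by
    rw [ee, ← pow_mul, show 4 * 3 = 3 * 2 * 2 from rfl, pow_mul, pow_mul, pow_two (f ^ 3), k.sq f3, one_pow]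
  rw [← e1] at t1 t2 t3 t4
  let U : Subgroup G :=
    { carrier := {x | x ∈ W ∧ ∀ i, i ≠ j → i ≠ ι j → i ≠ ω → c.π x i = 0}
      mul_mem' := fun {a b} x y => ⟨mul_mem x.1 y.1, fun i i1 i2 i3 => by
        rw [c.add _ x.1 _ y.1, Pi.add_apply, x.2 i i1 i2 i3, y.2 i i1 i2 i3, add_zero]⟩
      one_mem' := ⟨one_mem _, fun i _ _ _ => by rw [c.one]; rfl⟩
      inv_mem' := fun {a} x => by rwa [k.inv_eq x.1] }
  have UW : U ≤ W := fun x a => a.1
  have cl : ∀ b ∈ B, ∀ i, i ≠ j → i ≠ ι j → i ≠ ω → c.pr b i ≠ j ∧ c.pr b i ≠ ι j ∧ c.pr b i ≠ ω := fun b hb i i1 i2 i3 => by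
    rcases k.le b hb i with a | a <;> rw [a]
    exacts [⟨i1, i2, i3⟩, ⟨fun f => i2 (by rw [← f, k.invo]), fun f => i1 (by rw [← k.invo i, f, k.invo]), k.ne' i3⟩]
  have fω : ∀ b ∈ B, c.pr b ω = ω := fun b hb => k.om (k.nB hb) (Subgroup.le_normalizer hb)
  have fι : ∀ b ∈ B, c.pr b (ι j) = ι (c.pr b j) := fun b hb => k.cm0 (k.nB hb) (Subgroup.le_normalizer hb) hj
  have fx : ∀ b ∈ B, ∀ u ∈ U, c.π u (c.pr b j) = c.π u j → c.π u (c.pr b (ι j)) = c.π u (ι j) → ⁅b, u⁆ = 1 :=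
    fun b hb u hu a1 a2 => by
      rw [commutatorElement_def, (k.fix_iff (k.nB hb) hu.1).mpr fun i => ?_, mul_inv_cancel]
      by_cases i1 : i = j
      · rwa [i1]
      by_cases i2 : i = ι j
      · rwa [i2]
      by_cases i3 : i = ω
      · rw [i3, fω b hb]
      obtain ⟨b1, b2, b3⟩ := cl b hb i i1 i2 i3
      rw [hu.2 _ b1 b2 b3, hu.2 _ i1 i2 i3]
  have fC : ∀ b ∈ B, c.pr b j = j → b ∈ C_(U) := fun b hb a u hu =>
    (commutatorElement_eq_one_iff_mul_comm.mp (fx b hb u hu (by rw [a]) (by rw [fι b hb, a]))).symm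
  have π0 : c.π (w j * w ω) = Pi.single j 1 + Pi.single ω 1 := by rw [c.add _ (k.mem _) _ (k.mem _), k.π, k.π, Pm.vv_add]
  have u0 : w j * w ω ∈ U := ⟨mul_mem (k.mem _) (k.mem _), fun i i1 _ i3 => by simp [π0, i1, i3]⟩
  have fC' : ∀ b ∈ B, b * (w j * w ω) = w j * w ω * b → c.pr b j = j := fun b hb a =>
    (k.pair_fix (k.nB hb) a hj).resolve_right fun a => hj ((c.pr b).injective (a.trans (fω b hb).symm))
  have cp : (orderOf e).Coprime 2 := (show Nat.Coprime 3 2 by decide).coprime_dvd_left (orderOf_dvd_of_pow_eq_one e3)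
  have DW : ⁅B ⊓ C_(U), Subgroup.zpowers e⁆ ≤ W := by
    rw [Subgroup.commutator_comm]
    refine (comm_zp_le_iff eN.2).mpr fun d hd => (h.RW2 rfl).le (h.kerC ⟨commutatorElement_mem_of_mem_normalizer' (k.nB hd.1).1 he, ?_⟩)
    have dN := k.nB hd.1
    have a := fC' d hd.1 (hd.2 _ u0).symm
    refine (k.cent_iff (mul_mem (mul_mem (mul_mem eN dN) (inv_mem eN)) (inv_mem dN))).mpr ?_
    rw [k.mul (mul_mem (mul_mem eN dN) (inv_mem eN)) (inv_mem dN), k.conj eN dN, k.inv dN, mul_inv_eq_one, mul_inv_eq_iff_eq_mul]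
    ext i : 1
    rw [Perm.mul_apply, Perm.mul_apply]
    by_cases i1 : i = j
    · rw [i1, a, t1, fι d hd.1, a]
    by_cases i2 : i = ι j
    · rw [i2, fι d hd.1, a, t2, fω d hd.1]
    by_cases i3 : i = ω
    · rw [i3, fω d hd.1, t3, a]
    obtain ⟨b1, b2, b3⟩ := cl d hd.1 i i1 i2 i3
    rw [t4 _ b1 b2 b3, t4 _ i1 i2 i3]
  obtain ⟨a, ha, a1⟩ := k.sw j hj
  refine ⟨U, Subgroup.zpowers e, UW.trans h.WB, le_normalizer_iff_cj.mpr fun b hb => cj_le_iff.mpr fun x hx =>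
    ⟨cj_mem_of_N (k.nB hb).2 hx.1, fun i i1 i2 i3 => ?_⟩, fun u hu => k.sq hu.1, ?_, ?_, fun a => k.ne2 hj (a.le u0),
    fun a => n0 (h.top k (a (Subgroup.mem_zpowers e)) (Subgroup.mem_sup_left he) (t3 ▸ hj)), ?_, fun u hu b hb a => ?_,
    fun t ht => (cj_le_of_le_of_mem_normalizer (UW.trans h.WV) (le_normalizer_omegaZ (le_normalizer_pCoreOf H)
      (h.syl.le ht))).trans ((omegaZ_le _).trans (h.QW.trans (centralizer_anti UW)))⟩
  · obtain ⟨b1, b2, b3⟩ := cl _ (inv_mem hb) i i1 i2 i3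
    rw [k.as (k.nB hb) x hx.1, pa, ← k.inv (k.nB hb), hx.2 _ b1 b2 b3]
  · refine (relIndex_le_of (s := {j, ι j}) (fun b => c.pr b j) (fun b hb => k.le b hb j) fun a ha b hb e =>
      fC _ (mul_mem (inv_mem ha) hb) ?_).1.trans (by rw [Nat.card_coe_set_eq]; exact Set.ncard_insert_le _ _ |>.trans (by simp))
    rw [k.mul (inv_mem (k.nB ha)) (k.nB hb), k.inv (k.nB ha), Perm.mul_apply, Perm.inv_eq_iff_eq, e]
  · refine Nat.one_lt_iff_ne_zero_and_ne_one.mpr ⟨Subgroup.FiniteIndex.index_ne_zero, fun f => k.ne hj ?_⟩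
    have := fC' a (k.JB ha) (Subgroup.relIndex_eq_one.mp f u0 a (k.JB ha))
    rw [a1, swap_apply_left] at this; exact this.symm
  · have := commutator_pResidualOf_idem' (p := 2) (V := B ⊓ C_(U)) (H := Subgroup.zpowers e)
    rw [pResidualOf_zpowers cp] at this
    rw [← this (h.pW.to_le DW), Subgroup.commutator_comm]
    refine (Subgroup.commutator_mono le_rfl DW).trans ((comm_zp_le_iff (W := U) (mem_normalizer_of_cj_le (cj_le_iff.mpr fun x hx =>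
      ⟨cj_mem_of_N eN.2 hx.1, fun i i1 i2 i3 => ?_⟩))).mpr fun x hx =>
        ⟨commutatorElement_mem_of_mem_normalizer eN.2 hx, fun i i1 i2 i3 => ?_⟩)
    · rw [k.as eN x hx.1, pa, Perm.inv_eq_iff_eq.mpr (t4 i i1 i2 i3).symm, hx.2 i i1 i2 i3]
    · rw [c.π_comm eN.2 hx, k.as eN x hx, Pi.sub_apply, pa, Perm.inv_eq_iff_eq.mpr (t4 i i1 i2 i3).symm, sub_self]
  · rcases k.le b hb j with l | l
    · exact .inl (fC b hb l)
    have m := commutatorElement_mem_of_mem_normalizer (k.nB hb).2 hu.1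
    have := (k.fix_iff eN m).mp (cj_eq_of a (Subgroup.mem_zpowers e)) ω
    rw [t3, c.π_comm (k.nB hb).2 hu.1, k.as (k.nB hb) u hu.1, Pi.sub_apply, Pi.sub_apply, pa, pa,
      Perm.inv_eq_iff_eq.mpr (fω b hb).symm, sub_self, sub_eq_zero, Perm.inv_eq_iff_eq.mpr
      (show j = c.pr b (ι j) by rw [fι b hb, l, k.invo])] at this
    refine .inr fun d hd => commutatorElement_eq_one_iff_mul_comm.mp (fx d hd u hu ?_ ?_)
    · rcases k.le d hd j with l | l <;> rw [l]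
      exact this
    · rcases k.le d hd (ι j) with l | l <;> rw [l]
      rw [k.invo, this]

theorem odd_aut (x : Cx 2 ⊤ T B) (um : UMax T ⊤ M) (h0 : T ≠ ⊥) (A : Subgroup (MulAut T)) (hA : Odd (Nat.card A)) :
    ∃ X : Subgroup G, X ≠ ⊥ ∧ X.Normal ∧ X ≤ T ∧ ∀ a ∈ A, ∀ x : T, (x : G) ∈ X → (a x : G) ∈ X := by
  by_contra c
  obtain ⟨m, E, ⟨hE, -⟩, n⟩ := x.star_le um.lt.ne (iSup_le fun C => um.le_of_not_le (Subgroup.le_normalizer.trans
    (N_le_of_char C.2.1 C.2.2.2)) le_top fun a => c ⟨C, C.2.2.1, Subgroup.normalizer_eq_top_iff.mp (top_le_iff.mp a), C.2.1,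
      fun a _ y => Subgroup.characteristic_iff_le_comap.mp C.2.2.2 a (x := y)⟩) h0
  have b := SB.bm hE x m
  have hB : (B.subgroupOf T).Characteristic := x.eB ▸ bm_char T
  rcases b.mi.ty with ⟨F, _, _, _, ⟨k⟩⟩ | ⟨-, n', o, o3, ⟨k⟩⟩
  · exact c ((b.ob_lin n k).ex x.BT hB um A hA)
  · obtain ⟨w, t⟩ := b.mi.exists_pt o o3 k
    obtain ⟨ι, ω, t⟩ := t.exists_pb x b.EH b.WT (b.WE.trans Subgroup.le_normalizer) b.JN b.nJ
    have := Fin.nontrivial_iff_two_le.mpr (show 2 ≤ n' by omega)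
    obtain ⟨j, hj⟩ := exists_ne ω
    obtain ⟨U, E, o⟩ := BC.ob_pm b t n hj
    exact c (o.ex x.BT hB um A hA)

end H26
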