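import Cfsg.Agent.H19.Cm0

/-! The 3-local characterization of `A₈`: the case of `S₈` does not occur. -/

set_option autoImplicit false
set_option synthInstance.maxSize 4000

namespace Cfsg.Agent.H26.Cm
open H19.Cm Equiv Subgroup

theorem be_aux {G : Type*} [Group G] {a b c d u i s : G} (aa : a * a = 1) (bb : b * b = 1) (ii : i * i = 1) (ss : s * s = 1)
    (hb : s * a * s = b) (hd : s * c * s = d) (ia : a * i = i * a) (ib : b * i = i * b) (id : d * i = i * d) (iu : u * i = i * u)
    (r1 : u * a * u = c) (r2 : a * u * a = c) (r3 : a * c * a = u) (r4 : b * (u * i) * b = d) (r5 : u * i * d * (u * i) = b)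
    (r6 : d * (u * i) * d = b) (be : a * d = d * a) :
    s * a * b * a * (s * a * b * a) = i ∧ s * a * b * a * (a * c) = a * c * (s * a * b * a) := by
  have l : ∀ {x y w : G}, x * y = w → ∀ t, x * (y * t) = w * t := fun h t => by rw [← mul_assoc, h]
  have k1 : b * u * b = d * i := by rw [← r4]; simp only [mul_assoc, l ia, l ib, l id, l iu, l ii, ia, ib, iu, ii, one_mul]
  have k2 : u * d * u = b := by rw [← r5]; simp only [mul_assoc, l ia, l ib, l id, l iu, l ii, id, iu, ii, one_mul]
  have k3 : d * u * d = b * i := by rw [← r6]; simp only [mul_assoc, l ia, l id, l iu, l ii, id, iu, ii, one_mul]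
  have k4 : b * a * b = a * b * a * i := by
    calc b * a * b = u * d * (u * a * u) * d * u := by rw [← k2]; group
      _ = u * (d * a) * u * (a * d) * u := by rw [r1, ← r2]; group
      _ = u * a * (d * u * d) * a * u := by rw [← be]; nth_rewrite 2 [be]; group
      _ = u * a * b * a * u * i := by rw [k3]; simp only [mul_assoc, l ia, l ib, l iu, iu]
      _ = u * a * u * d * (u * a * u) * i := by rw [← k2]; group
      _ = a * u * (a * (d * a)) * u * a * i := by rw [r1, ← r2]; group
      _ = _ := by rw [← be, ← mul_assoc a a, aa, ← k2]; group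
  have sa : s * a = b * s := by rw [← hb, mul_assoc, ss, mul_one]
  have sb : s * b = a * s := by rw [← hb, ← mul_assoc, ← mul_assoc, ss, one_mul]
  have sd : s * d = c * s := by rw [← hd, ← mul_assoc, ← mul_assoc, ss, one_mul]
  constructor
  · calc _ = b * a * b * (a * b * a) := by simp only [mul_assoc, l sa, l sb, l ss, one_mul]
      _ = i := by rw [k4]; simp only [mul_assoc, l ia, l ib, ia, l aa, l bb, aa, one_mul, mul_one]
  · calc _ = s * a * (b * a * b) * a * (a * (b * (a * c * a) * b) * a) * (a * b * a) := by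
          simp only [mul_assoc, l aa, l bb, aa, one_mul, mul_one]
      _ = s * b * (d * a * a) * (a * b * a) := by
          rw [k4, r3, k1]; simp only [mul_assoc, l ia, l ib, l id, l ii, l aa, one_mul, l be]
      _ = _ := by simp only [mul_assoc, l aa, one_mul, l sb, l sd]

theorem be_L : A * A = 1 ∧ I * I = 1 ∧ I ≠ 1 ∧ A * I = I * A ∧ A8 * I = I * A8 ∧ U * I = I * U ∧ U * I = U' ∧ A * U * A = A8 ∧
    A * A8 * A = U ∧ U * A8 * U = A ∧ A8 * U * A8 = A ∧ (∃ W : L, W * (A * A8) * W⁻¹ = Z') ∧
    ∀ x : L, x * Z = Z * x → x * x * (x * x) = 1 → x * x = 1 := by decide +kernel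

theorem nbe {G : Type*} [Group G] {f : L →* G} {s : G} (h : Hy f s) : ¬ Be f s := fun be => by
  obtain ⟨l1, l2, l3, l4, l5, l6, l7, l8, l9, l10, l11, ⟨W, l12⟩, l13⟩ := be_L
  have m : ∀ {x y : L}, x = y → f x = f y := congrArg f
  have c : ∀ x y : G, s * (x * y) * s = s * x * s * (s * y * s) := fun x y => by
    rw [show s * x * s * (s * y * s) = s * x * (s * s) * y * s by group, h.s2]; group
  have si : s * f I * s = f I := by rw [h.si, mul_assoc, h.s2, mul_one]
  have su : s * f U * s = f U * f I := by rw [h.su, ← map_mul, l7]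
  have n : ∀ {x y : L}, x = y → s * f x * s = s * f y * s := fun e => by rw [e]
  obtain ⟨e1, e2⟩ := be_aux (a := f A) (c := f A8) (u := f U) (i := f I) (s := s) (by simpa using m l1)
    (by simpa only [map_mul, c, map_one, mul_one, h.s2] using n l1) (by simpa using m l2) h.s2 rfl rfl
    (by simpa using m l4) (by simpa only [map_mul, c, si] using n l4) (by simpa only [map_mul, c, si] using n l5)
    (by simpa using m l6) (by simp [A8]) (by simpa using m l8) (by simpa using m l9)
    (by simpa only [map_mul, c, su] using n l8) (by simpa only [map_mul, c, su] using n l10)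
    (by simpa only [map_mul, c, su] using n l11) be
  generalize s * f A * (s * f A * s) * f A = e at e1 e2
  obtain ⟨x, x1, x2⟩ := h.cz' (g := f W * e * (f W)⁻¹) (by
    rw [← l12, map_mul, map_mul, map_mul, map_inv]
    calc _ = f W * (e * (f A * f A8)) * (f W)⁻¹ := by group
      _ = _ := by rw [e2]; group)
  have k : s * f (x * x) * s = f (W * I * W⁻¹) := by
    rw [map_mul, c, x1, map_mul, map_mul, map_inv, ← e1]; group
  have k2 : x * x * (x * x) = 1 := h.inj (by
    have : s * f (x * x * (x * x)) * s = 1 := by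
      rw [map_mul, c, k, ← map_mul, show W * I * W⁻¹ * (W * I * W⁻¹) = W * (I * I) * W⁻¹ by group, l2]; simp
    nth_rewrite 2 [← h.si'] at this
    rw [map_one]; exact conj_eq_one_iff.1 this)
  rw [l13 x x2 k2, map_one, mul_one, h.s2, eq_comm, map_eq_one_iff f h.inj] at k
  exact l3 (by simpa using k)

end Cfsg.Agent.H26.Cm
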