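import Cfsg.Agent.H19.Cm0

/-!
Part (4a) of the `A₈` characterization: structure of `C(V₇)` and the trichotomy.
-/

set_option autoImplicit false
set_option synthInstance.maxSize 4000

namespace Cfsg.Agent.H26.Cm
open H19.Cm Equiv Subgroup

theorem compl3 {C : Type*} [Group C] [Finite C] (z : C) (z3 : z ^ 3 = 1)
    (hN : ∀ g : C, g * z * g⁻¹ ∈ zpowers z → g * z = z * g ∧ g ^ 6 = 1 ∧ g ^ 4 ∈ zpowers z) :
    ∃ K : Subgroup C, (∀ g, g ∈ K ↔ (orderOf g).Coprime 3) ∧ (Nat.card K).Coprime 3 ∧ K ⊔ zpowers z = ⊤ := by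
  have := Fact.mk Nat.prime_three
  have hp : IsPGroup 3 (zpowers z) := by
    rintro ⟨g, hg⟩
    obtain ⟨n, rfl⟩ := mem_zpowers_iff.1 hg
    refine ⟨1, Subtype.ext ?_⟩
    show (z ^ n) ^ (3 ^ 1) = 1
    rw [pow_one, ← zpow_natCast, ← zpow_mul, mul_comm, zpow_mul, zpow_natCast, z3, one_zpow]
  have hmax : ∀ {Q : Subgroup C}, IsPGroup 3 Q → zpowers z ≤ Q → Q = zpowers z := by
    intro Q hQ hle
    by_contra hne
    have := hQ.isNilpotent
    have hlt : (zpowers z).subgroupOf Q < ⊤ := by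
      rw [lt_top_iff_ne_top, Ne, subgroupOf_eq_top]
      exact fun h => hne (le_antisymm h hle)
    obtain ⟨g, hg, hg'⟩ := SetLike.exists_of_lt (Group.normalizerCondition_of_isNilpotent _ hlt)
    have h1 := (hg ⟨z, hle (mem_zpowers z)⟩).1 (mem_subgroupOf.2 (mem_zpowers z))
    obtain ⟨-, h6, h4⟩ := hN g (mem_subgroupOf.1 h1)
    obtain ⟨k, hk⟩ := hQ g
    have hk' : (g : C) ^ 3 ^ k = 1 := congrArg Subtype.val hk
    have h3 : (g : C) ^ 3 = 1 := by
      have a := orderOf_dvd_of_pow_eq_one hk'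
      have b := orderOf_dvd_of_pow_eq_one h6
      have c : (orderOf (g : C)).Coprime 2 := Nat.Coprime.coprime_dvd_left a (Nat.Coprime.pow_left _ (by norm_num))
      exact orderOf_dvd_iff_pow_eq_one.1 (c.dvd_of_dvd_mul_left (by simpa using b))
    refine hg' (mem_subgroupOf.2 ?_)
    rwa [show 4 = 3 + 1 from rfl, pow_succ, h3, one_mul] at h4
  let P : Sylow 3 C := ⟨zpowers z, hp, hmax⟩
  have h : normalizer ((P : Subgroup C) : Set C) ≤ centralizer ((P : Subgroup C) : Set C) := by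
    intro g hg u hu
    obtain ⟨n, rfl⟩ := mem_zpowers_iff.1 hu
    exact ((show Commute g z from (hN g ((hg z).1 (mem_zpowers z))).1).zpow_right n).symm.eq
  have hc : (Nat.card (MonoidHom.transferSylow P h).ker).Coprime 3 :=
    ((Nat.Prime.coprime_iff_not_dvd Nat.prime_three).2 (MonoidHom.not_dvd_card_ker_transferSylow P h)).symm
  refine ⟨(MonoidHom.transferSylow P h).ker, fun g => ⟨fun hg => ?_, fun hg => ?_⟩, hc,
    (MonoidHom.ker_transferSylow_isComplement' P h).sup_eq_top⟩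
  · exact Nat.Coprime.coprime_dvd_left (orderOf_dvd_natCard _ hg) hc
  · obtain ⟨k, hk⟩ := P.2 (MonoidHom.transferSylow P h g)
    have a := orderOf_dvd_of_pow_eq_one hk
    have b := orderOf_map_dvd (MonoidHom.transferSylow P h) g
    exact MonoidHom.mem_ker.2 (orderOf_eq_one_iff.1
      (Nat.eq_one_of_dvd_coprimes (hg.pow_right k) b a))

theorem cvf1 : ∀ x : L, x * A = A * x → x * A' = A' * x →
    x * Z = Z * x ∧ x ^ 6 = 1 ∧ ∃ i : Fin 3, x ^ 4 = Z ^ i.val := by decide +kernel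

theorem cvf2 : Z * A = A * Z ∧ Z * A' = A' * Z ∧ A * A' = A' * A ∧ A ^ 2 = 1 ∧
    Z'⁻¹ * A * Z' = A * A' ∧ Z'⁻¹ * A' * Z' = A := by decide +kernel

variable {G : Type*} [Group G] {f : L →* G} {s : G}

theorem mem_cv {g : G} : g ∈ centralizer {f A, f A'} ↔ g * f A = f A * g ∧ g * f A' = f A' * g := by
  rw [mem_centralizer_iff]
  simp only [Set.mem_insert_iff, Set.mem_singleton_iff, forall_eq_or_imp, forall_eq]
  exact ⟨fun h => ⟨h.1.symm, h.2.symm⟩, fun h => ⟨h.1.symm, h.2.symm⟩⟩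

theorem cv [Finite G] (h : Hy f s) : CV f := by
  have zC : f Z ∈ centralizer {f A, f A'} := mem_cv.2 ⟨by rw [← map_mul, ← map_mul, cvf2.1],
    by rw [← map_mul, ← map_mul, cvf2.2.1]⟩
  obtain ⟨K, hK, hc, hs⟩ := compl3 (C := centralizer {f A, f A'}) ⟨f Z, zC⟩
    (Subtype.ext (by show f Z ^ 3 = 1; rw [← map_pow, zz.2.1, map_one])) (by
      rintro ⟨g, hg⟩ hz
      obtain ⟨n, hn⟩ := mem_zpowers_iff.1 hz
      have hn' : f Z ^ n = g * f Z * g⁻¹ := congrArg Subtype.val hn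
      obtain ⟨x, rfl⟩ := (h.hN g).1 (mem_normalizer_fintype fun u hu => by
        obtain ⟨m, rfl⟩ := mem_zpowers_iff.1 hu
        rw [← conj_zpow, ← hn']
        exact zpow_mem (zpow_mem (mem_zpowers _) _) _)
      obtain ⟨c1, c2⟩ := mem_cv.1 hg
      obtain ⟨a, b, i, c⟩ := cvf1 x (h.inj (by rw [map_mul, map_mul, c1])) (h.inj (by rw [map_mul, map_mul, c2]))
      refine ⟨Subtype.ext ?_, Subtype.ext ?_, mem_zpowers_iff.2 ⟨(i.val : ℕ), Subtype.ext ?_⟩⟩
      · show f x * f Z = f Z * f x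
        rw [← map_mul, ← map_mul, a]
      · show f x ^ 6 = 1
        rw [← map_pow, b, map_one]
      · show f Z ^ ((i.val : ℕ) : ℤ) = f x ^ 4
        rw [zpow_natCast, ← map_pow, ← map_pow, c])
  have hM : ∀ g, g ∈ K.map (centralizer {f A, f A'}).subtype ↔
      g ∈ centralizer {f A, f A'} ∧ (orderOf g).Coprime 3 := by
    intro g
    constructor
    · rintro ⟨x, hx, rfl⟩
      exact ⟨x.2, by simpa using (hK x).1 hx⟩
    · rintro ⟨a, b⟩
      exact ⟨⟨g, a⟩, (hK _).2 (by simpa using b), rfl⟩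
  have nrm : ∀ t : G, (∀ g ∈ centralizer {f A, f A'}, t * g * t⁻¹ ∈ centralizer {f A, f A'}) →
      t ∈ normalizer ((K.map (centralizer {f A, f A'}).subtype : Subgroup G) : Set G) := by
    intro t ht
    refine mem_normalizer_fintype fun g hg => ?_
    obtain ⟨a, b⟩ := (hM g).1 hg
    refine (hM _).2 ⟨ht g a, ?_⟩
    rwa [show t * g * t⁻¹ = MulAut.conj t g from rfl, MulEquiv.orderOf_eq]
  refine ⟨K.map (centralizer {f A, f A'}).subtype, ?_, ?_, ?_, map_subtype_le _, ?_⟩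
  · rwa [card_map_of_injective (subtype_injective _)]
  · refine (closure_le _).2 ?_
    rintro t (rfl | rfl)
    · exact nrm _ fun g hg => mul_mem (mul_mem zC hg) (inv_mem zC)
    · refine nrm _ fun g hg => ?_
      obtain ⟨c1, c2⟩ := mem_cv.1 hg
      have e1 : (f Z')⁻¹ * f A * f Z' = f A * f A' := by
        rw [← map_inv, ← map_mul, ← map_mul, ← map_mul, cvf2.2.2.2.2.1]
      have e2 : (f Z')⁻¹ * f A' * f Z' = f A := by
        rw [← map_inv, ← map_mul, ← map_mul, cvf2.2.2.2.2.2]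
      have key : ∀ b : G, g * ((f Z')⁻¹ * b * f Z') = ((f Z')⁻¹ * b * f Z') * g →
          f Z' * g * (f Z')⁻¹ * b = b * (f Z' * g * (f Z')⁻¹) := by
        intro b hb
        calc f Z' * g * (f Z')⁻¹ * b = f Z' * (g * ((f Z')⁻¹ * b * f Z')) * (f Z')⁻¹ := by group
          _ = _ := by rw [hb]; group
      refine mem_cv.2 ⟨key _ ?_, key _ ?_⟩
      · rw [e1, ← mul_assoc, c1, mul_assoc, c2, mul_assoc]
      · rw [e2, c1]
  · refine (hM _).2 ⟨mem_cv.2 ⟨rfl, by rw [← map_mul, ← map_mul, cvf2.2.2.1]⟩, ?_⟩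
    have : orderOf (f A) ∣ 2 := orderOf_dvd_of_pow_eq_one (by rw [← map_pow, cvf2.2.2.2.1, map_one])
    exact Nat.Coprime.coprime_dvd_left this (by norm_num)
  · intro g hg
    have : (⟨g, hg⟩ : centralizer {f A, f A'}) ∈ K ⊔ zpowers ⟨f Z, zC⟩ := hs ▸ mem_top _
    have := mem_map_of_mem (centralizer {f A, f A'}).subtype this
    rwa [Subgroup.map_sup, MonoidHom.map_zpowers] at this

theorem tri (gen : Gen f s) (c : CV f) : Al f s ∨ Be f s ∨ Ga f := by
  obtain ⟨M, h1, h2, h3, h4, h5⟩ := c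
  obtain ⟨g1, -, g3⟩ := gen M h1 h2
  by_cases sa : s * f A * s ∈ M
  · exact Or.inl (mem_cv.1 (h4 sa)).1.symm
  by_cases sb : s * f A8 * s ∈ M
  · exact Or.inr (Or.inl (mem_cv.1 (h4 sb)).1.symm)
  refine Or.inr (Or.inr fun g c1 c2 => ?_)
  have hle : M ≤ closure {f A, f A', f Z} := g3 _
    (fun _ => ⟨subset_closure (by simp), subset_closure (by simp)⟩) (fun h => (g1 ⟨h3, h⟩).elim)
    (fun h => (sa h).elim) (fun h => (sb h).elim)
  exact sup_le hle (zpowers_le.2 (subset_closure (by simp))) (h5 (mem_cv.2 ⟨c1, c2⟩))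

end Cfsg.Agent.H26.Cm
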