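import Cfsg.Agent.S2119
import Cfsg.Agent.H22.FStar

/-!
Finishing lemmas for the 3-local characterization of `S₈`.
-/

set_option autoImplicit false

namespace Cfsg.Agent.H26.Cs
open Subgroup

variable {G : Type*} [Group G] [Finite G]

theorem sym8 (H : Subgroup G) (hi : H.index = 2) (e : H ≃* alternatingGroup (Fin 8)) (hZ : center G = ⊥) :
    Nonempty (G ≃* Equiv.Perm (Fin 8)) := by
  have := normal_of_index_eq_two hi
  let b := MulEquiv.ofBijective _ (Cfsg.Agent.S2119.result 8 (by norm_num) (by norm_num))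
  let φ : G →* Equiv.Perm (Fin 8) :=
    b.symm.toMonoidHom.comp ((MulAut.congr e).toMonoidHom.comp (MulAut.conjNormal : G →* MulAut H))
  have inj : Function.Injective φ := by
    refine (injective_iff_map_eq_one φ).2 fun g hg => ?_
    have h1 : (MulAut.conjNormal g : MulAut H) = 1 :=
      (MulAut.congr e).injective (by rw [map_one]; simpa [φ] using hg)
    have h2 : ∀ h ∈ H, g * h = h * g := fun h hh => by
      have := congrArg Subtype.val (DFunLike.congr_fun h1 ⟨h, hh⟩)
      exact mul_inv_eq_iff_eq_mul.1 (by simpa using this)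
    by_cases k : g ∈ H
    · have c : e ⟨g, k⟩ ∈ center (alternatingGroup (Fin 8)) := mem_center_iff.2 fun x => by
        obtain ⟨x, rfl⟩ := e.surjective x
        rw [← map_mul, ← map_mul]
        exact congrArg e (Subtype.ext (h2 x x.2).symm)
      rw [alternatingGroup.center_eq_bot (by simp), mem_bot, MulEquiv.map_eq_one_iff] at c
      exact congrArg Subtype.val c
    · have : g ∈ center G := mem_center_iff.2 fun x => by
        by_cases l : x ∈ H
        · exact (h2 x l).symm
        · have m : g⁻¹ * x ∈ H := (mul_mem_iff_of_index_two hi).2 (by simp [k, l])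
          have := h2 _ m
          calc x * g = g * (g⁻¹ * x * g) := by group
            _ = g * x := by rw [← this]; group
      rwa [hZ, mem_bot] at this
  refine ⟨MulEquiv.ofBijective φ ((Nat.bijective_iff_injective_and_card φ).2 ⟨inj, ?_⟩)⟩
  rw [← H.card_mul_index, hi, Nat.card_congr e.toEquiv, ← (alternatingGroup (Fin 8)).card_mul_index,
    alternatingGroup.index_eq_two]

abbrev A5 := alternatingGroup (Fin 5)

theorem a5_top (K : Subgroup A5) [K.Normal] {a : A5} (ha : a ∈ K) (a1 : a ≠ 1) : K = ⊤ :=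
  (IsSimpleGroup.eq_bot_or_eq_top_of_normal K inferInstance).resolve_left fun h => a1 (by rwa [h, mem_bot] at ha)

theorem a5_nc {a : A5} (a1 : a ≠ 1) : ∃ x : A5, x * a * x⁻¹ * a⁻¹ ≠ 1 := by
  by_contra! h
  have c : a ∈ center A5 := mem_center_iff.2 fun x => by
    have := h x
    rwa [mul_inv_eq_one, mul_inv_eq_iff_eq_mul] at this
  rw [alternatingGroup.center_eq_bot (by simp), mem_bot] at c
  exact a1 c

omit [Finite G] in
theorem minn (φ : A5 × A5 →* G) (inj : Function.Injective φ) (s : G)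
    (h1 : ∀ a, ∃ b, s * φ (a, 1) * s⁻¹ = φ (1, b)) (h2 : ∀ b, ∃ a, s * φ (1, b) * s⁻¹ = φ (a, 1))
    (K : Subgroup G) (hK : K.Normal) (hle : K ≤ φ.range) : K = ⊥ ∨ K = φ.range := by
  have l : ∀ a : A5, a ≠ 1 → φ (a, 1) ∈ K → ∀ x, φ (x, 1) ∈ K := fun a a1 m x =>
    (a5_top (K.comap (φ.comp (MonoidHom.inl A5 A5))) (a := a) m a1).ge (mem_top x)
  have r : ∀ a : A5, a ≠ 1 → φ (1, a) ∈ K → ∀ x, φ (1, x) ∈ K := fun a a1 m x =>
    (a5_top (K.comap (φ.comp (MonoidHom.inr A5 A5))) (a := a) m a1).ge (mem_top x)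
  have ne : ∀ {p q : A5 × A5}, s * φ p * s⁻¹ = φ q → q = 1 → p = 1 := fun {p q} e q1 => inj (by
    rw [q1, map_one, conj_eq_one_iff] at e; rw [e, map_one])
  have fin : (∀ x, φ (x, 1) ∈ K) → (∀ x, φ (1, x) ∈ K) → K = φ.range := fun a b => le_antisymm hle (by
    rintro _ ⟨⟨x, y⟩, rfl⟩
    have := mul_mem (a x) (b y)
    rwa [← map_mul, Prod.mk_mul_mk, mul_one, one_mul] at this)
  refine or_iff_not_imp_left.2 fun hb => ?_
  obtain ⟨⟨g, hg⟩, g1⟩ := ne_bot_iff_exists_ne_one.1 hb
  obtain ⟨⟨a, b⟩, rfl⟩ := hle hg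
  by_cases a1 : a = 1
  · have b1 : b ≠ 1 := fun b1 => g1 (Subtype.ext (by subst a1 b1; exact map_one φ))
    subst a1
    obtain ⟨c, hc⟩ := h2 b
    exact fin (l c (fun c1 => b1 (congrArg Prod.snd (ne hc (by rw [c1]; rfl)))) (hc ▸ hK.conj_mem _ hg s)) (r b b1 hg)
  · obtain ⟨x, hx⟩ := a5_nc a1
    have m : φ (x * a * x⁻¹ * a⁻¹, 1) ∈ K := by
      have := mul_mem (hK.conj_mem _ hg (φ (x, 1))) (inv_mem hg)
      rw [← map_inv, ← map_inv, ← map_mul, ← map_mul, ← map_mul] at this
      simpa using this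
    obtain ⟨c, hc⟩ := h1 (x * a * x⁻¹ * a⁻¹)
    exact fin (l _ hx m) (r c (fun c1 => hx (congrArg Prod.fst (ne hc (by rw [c1]; rfl)))) (hc ▸ hK.conj_mem _ m s))

theorem exc (φ : A5 × A5 →* G) (inj : Function.Injective φ) (hN : φ.range.Normal) (hi : φ.range.index = 4)
    (sq : ∀ g : G, g ^ 2 ∈ φ.range) (hO : ∀ M : Subgroup G, M.Normal → IsPGroup 2 M → M = ⊥) (s : G)
    (h1 : ∀ a, ∃ b, s * φ (a, 1) * s⁻¹ = φ (1, b)) (h2 : ∀ b, ∃ a, s * φ (1, b) * s⁻¹ = φ (a, 1)) :
    ∃ N : Subgroup G, N.Normal ∧ Cfsg.generalizedFittingSubgroup G = N ∧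
      Nonempty (N ≃* alternatingGroup (Fin 5) × alternatingGroup (Fin 5)) ∧
      (∀ K : Subgroup G, K.Normal → K ≤ N → K = ⊥ ∨ K = N) ∧ N.index = 4 ∧ ∀ g : G, g ^ 2 ∈ N := by
  have mn := minn φ inj s h1 h2
  refine ⟨φ.range, hN, ?_, ⟨(MonoidHom.ofInjective inj).symm⟩, mn, hi, sq⟩
  have fn := H22.fstar_normal (G := G)
  have nb : φ.range ≠ ⊥ := fun h => by
    have := Nat.card_congr (MonoidHom.ofInjective inj).toEquiv
    rw [h, card_bot, Nat.card_eq_one_iff_unique] at this
    exact not_subsingleton _ this.1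
  refine le_antisymm (sup_le ?_ ?_) ?_
  · have cm : commutator G ≤ φ.range := by
      refine commutator_le.2 fun a _ b _ => ?_
      have := mul_mem (mul_mem (sq (a * b)) (hN.conj_mem _ (inv_mem (sq a)) b⁻¹)) (inv_mem (sq b))
      convert this using 1
      simp only [commutatorElement_def, pow_two]
      group
    refine sSup_le fun K hK => ?_
    have p : ⁅K, K⁆ = K := by
      have := hK.2.1
      rw [← map_subtype_commutator, Group.IsPerfect.commutator_eq_top, ← MonoidHom.range_eq_map, range_subtype]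
    exact p ▸ (commutator_mono le_top le_top).trans cm
  · refine sSup_le fun F hF => ?_
    obtain ⟨n, nil⟩ := hF
    rcases mn (F ⊓ φ.range) inferInstance inf_le_right with h | h
    · refine (hO F n fun g => ⟨1, Subtype.ext ?_⟩).le.trans bot_le
      have : (g : G) ^ 2 ∈ F ⊓ φ.range := ⟨pow_mem g.2 2, sq g⟩
      rwa [h, mem_bot] at this
    · exfalso
      have le : φ.range ≤ F := h ▸ inf_le_left
      let ψ : A5 →* F := (inclusion le).comp (φ.rangeRestrict.comp (MonoidHom.inl A5 A5))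
      have : Group.IsSolvable A5 := Group.isSolvable_of_isSolvable_injective (f := ψ) fun a b e =>
        congrArg Prod.fst (inj (congrArg Subtype.val e))
      obtain ⟨x, hx⟩ := exists_ne (1 : A5)
      obtain ⟨y, hy⟩ := a5_nc hx
      exact hy (by rw [IsSimpleGroup.comm_iff_isSolvable.2 this y x]; group)
  · rcases mn (Cfsg.generalizedFittingSubgroup G ⊓ φ.range) inferInstance inf_le_right with h | h
    · exfalso
      have : φ.range ≤ centralizer (Cfsg.generalizedFittingSubgroup G : Set G) := by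
        rw [← commutator_eq_bot_iff_le_centralizer, eq_bot_iff, ← h, inf_comm]
        exact commutator_le_inf _ _
      exact nb (by rw [← h]; exact (inf_eq_right.2 (this.trans H22.centralizer_fstar_le)).symm)
    · exact h ▸ inf_le_left

end Cfsg.Agent.H26.Cs
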