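import Mathlib
import Cfsg.Agent.H26.Repl
import Cfsg.Agent.H26.Misc
import Cfsg.Agent.H04.Basic
import Cfsg.Prelude.Def_DStar

/-!
# The subgroup `D*(P)`

`DS P A` (ambient form of membership in `dStarFamily`), `ds_iff`, `ds_top_iff`, `DS.le_dStarOf`, `DS.le_centralizer`
(a member centralizes every abelian subgroup of `P` it normalizes), `dStar_mem`, `ds_dStarOf`, `DS.of_le`,
`class_two`, `cj_dStarOf`, `dStar_le_maxAb`.
-/

namespace H26
open Cfsg

variable {G : Type*} [Group G] {p : ℕ}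

/-- ambient form of the family generating `D*(P)` -/
structure DS (P A : Subgroup G) : Prop where
  le : A ≤ P
  comm : IsMulCommutative A
  mem : ∀ x ∈ P, ⁅⁅A ⊔ Subgroup.zpowers x, A ⊔ Subgroup.zpowers x⁆, A ⊔ Subgroup.zpowers x⁆ = ⊥ →
    x ∈ Subgroup.centralizer (A : Set G)

theorem class_two {A W : Subgroup G} {x : G} (hA : IsMulCommutative A) (h1 : ⁅A, Subgroup.zpowers x⁆ ≤ W)
    (h2 : A ≤ Subgroup.centralizer (W : Set G)) (h3 : x ∈ Subgroup.centralizer (W : Set G)) :
    ⁅⁅A ⊔ Subgroup.zpowers x, A ⊔ Subgroup.zpowers x⁆, A ⊔ Subgroup.zpowers x⁆ = ⊥ := by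
  have h4 := Subgroup.zpowers_le.mpr h3
  have h5 := h2.trans (centralizer_le_normalizer W)
  have h6 := h4.trans (centralizer_le_normalizer W)
  rw [commutator_eq_bot_iff']
  refine (sup_le h2 h4).trans (centralizer_anti (commutator_sup_le h5 h6 (commutator_sup_le' h5 h6 ?_ h1)
    (commutator_sup_le' h5 h6 ((Subgroup.commutator_comm _ _).le.trans h1) ?_)))
  · exact (Subgroup.commutator_self_eq_bot_iff.mpr hA).le.trans bot_le
  · exact (Subgroup.commutator_self_eq_bot_iff.mpr inferInstance).le.trans bot_le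

theorem ds_top_iff {A : Subgroup G} : DS ⊤ A ↔ A ∈ dStarFamily G :=
  ⟨fun h => ⟨h.comm, fun x a => h.mem x trivial a⟩, fun h => ⟨le_top, h.1, fun x _ a => h.2 x a⟩⟩

theorem DS.map_inj {G' : Type*} [Group G'] {f : G →* G'} (hf : Function.Injective f) {P A : Subgroup G}
    (h : DS P A) : DS (P.map f) (A.map f) := by
  refine ⟨Subgroup.map_mono h.le, haveI := h.comm; inferInstance, ?_⟩
  rintro _ ⟨x, hx, rfl⟩ a _ ⟨y, hy, rfl⟩
  rw [← MonoidHom.map_zpowers, ← Subgroup.map_sup, ← Subgroup.map_commutator, ← Subgroup.map_commutator,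
    Subgroup.map_eq_bot_iff_of_injective _ hf] at a
  rw [← map_mul, ← map_mul, h.mem x hx a y hy]

theorem DS.of_le {P Q A : Subgroup G} (h : DS P A) (h1 : A ≤ Q) (h2 : Q ≤ P) : DS Q A :=
  ⟨h1, h.comm, fun x hx => h.mem x (h2 hx)⟩

theorem ds_iff {P : Subgroup G} {A : Subgroup P} : DS P (A.map P.subtype) ↔ A ∈ dStarFamily P := by
  refine ⟨fun h => ⟨?_, fun x a y hy => Subtype.ext (h.mem x x.2 ?_ y (Subgroup.mem_map_of_mem _ hy))⟩, fun h => ?_⟩
  · have := h.comm
    rw [← map_subtype_subgroupOf A]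
    infer_instance
  · rw [← Subgroup.map_eq_bot_iff_of_injective _ P.subtype_injective, Subgroup.map_commutator,
      Subgroup.map_commutator, Subgroup.map_sup, MonoidHom.map_zpowers] at a
    exact a
  · simpa only [map_subtype_top] using (ds_top_iff.mpr h).map_inj P.subtype_injective

theorem DS.le_dStarOf {P A : Subgroup G} (h : DS P A) : A ≤ dStarOf P := by
  have h1 := Subgroup.map_subgroupOf_eq_of_le h.le
  exact h1.ge.trans (Subgroup.map_mono (le_sSup (ds_iff.mp (h1.symm ▸ h))))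

theorem DS.le_centralizer [Finite G] [Fact p.Prime] {P A : Subgroup G} (hP : IsPGroup p P) (h : DS P A)
    {B : Subgroup G} (h1 : B ≤ P) (h2 : IsMulCommutative B) (h3 : A ≤ Subgroup.normalizer (B : Set G)) :
    B ≤ Subgroup.centralizer (A : Set G) := by
  induction B using WellFoundedLT.induction with
  | ind B ih =>
  by_cases h0 : B = ⊥
  · exact h0.le.trans bot_le
  have h4 := commutator_le_of_le_normalizer h3
  have h5 := ih ⁅B, A⁆ (lt_of_le_of_ne h4 fun a => h0 (le_bot_iff.mp (le_of_le_sup_commutator (hP.to_le h1)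
    (hP.to_le h.le) h3 Subgroup.le_normalizer_of_normal Subgroup.le_normalizer_of_normal
    (a.ge.trans le_sup_right)))) (h4.trans h1) (comm_of_le h2 h4) (Subgroup.normalizer_commutator_ge_right B A)
  exact fun x hx => h.mem x (h1 hx) (class_two h.comm ((Subgroup.commutator_comm _ _).le.trans
    (Subgroup.commutator_mono (Subgroup.zpowers_le.mpr hx) le_rfl)) (Subgroup.le_centralizer_iff.mp h5)
    (centralizer_anti h4 (isMulCommutative_iff_le.mp h2 hx)))

theorem dStar_le_scn [Finite G] [Fact p.Prime] (hG : IsPGroup p G) {B : Subgroup G} [B.Normal]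
    (h : IsMulCommutative B) (h1 : Subgroup.centralizer (B : Set G) ≤ B) : dStar G ≤ B :=
  sSup_le fun _ a => (Subgroup.le_centralizer_iff.mp ((ds_top_iff.mpr a).le_centralizer (hG.to_subgroup ⊤)
    le_top h Subgroup.le_normalizer_of_normal)).trans h1

theorem dStar_mem [Finite G] [Fact p.Prime] (hG : IsPGroup p G) : dStar G ∈ dStarFamily G := by
  have := hG.isNilpotent
  obtain ⟨N, -, _, h1, h2⟩ := H04.exists_scn (⊥ : Subgroup G) inferInstance (isMulCommutative_iff_le.mpr bot_le)
  refine ⟨comm_of_le h1 (dStar_le_scn hG h1 h2.le), fun x a => mem_centralizer_iff_le.mpr (sSup_le fun A b =>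
    mem_centralizer_iff_le.mp (b.2 x (le_bot_iff.mp (le_trans ?_ a.le))))⟩
  have h3 : A ⊔ Subgroup.zpowers x ≤ dStar G ⊔ Subgroup.zpowers x := sup_le_sup_right (le_sSup b) _
  exact Subgroup.commutator_mono (Subgroup.commutator_mono h3 h3) h3

theorem ds_dStarOf [Fact p.Prime] {P : Subgroup G} [Finite P] (hP : IsPGroup p P) : DS P (dStarOf P) :=
  ds_iff.mpr (dStar_mem hP)

theorem le_normalizer_dStarOf [Fact p.Prime] {P : Subgroup G} [Finite P] (hP : IsPGroup p P) :
    Subgroup.normalizer (P : Set G) ≤ Subgroup.normalizer (dStarOf P : Set G) :=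
  le_normalizer_iff_cj.mpr fun g hg => by
    have := ((ds_dStarOf hP).map_inj (f := (MulAut.conj g).toMonoidHom) (MulAut.conj g).injective).le_dStarOf
    rwa [cj_eq_iff.mpr hg] at this

theorem DS.le_maxAb [Finite G] [Fact p.Prime] (hG : IsPGroup p G) {D : Subgroup G} [D.Normal] (h : DS ⊤ D)
    {A : Subgroup G} (hA : A ∈ maxAbelianSubgroups G) : D ≤ A := by
  have := hG.isNilpotent
  by_contra h0
  obtain ⟨A, ⟨hA, h0⟩, h1⟩ := Set.exists_max_image {A | A ∈ maxAbelianSubgroups G ∧ ¬ D ≤ A} pot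
    (Set.toFinite _) ⟨A, hA, h0⟩
  refine h0 (le_trans ?_ (maxAb_centralizer_le hA))
  by_cases h2 : D ≤ Subgroup.normalizer (A : Set G)
  · exact Subgroup.le_centralizer_iff.mp (h.le_centralizer (hG.to_subgroup ⊤) le_top hA.1 h2)
  obtain ⟨b, hb, h3⟩ := SetLike.not_le_iff_exists.mp h2
  have h4 := comm_of_le h.comm ((cm_le (Z := A) hb).trans (Subgroup.commutator_le_left D A))
  have h5 : cm b A ⊓ _ ≤ A := inf_le_right.trans (maxAb_centralizer_le hA)
  have h6 : D ≤ repl b A := by_contra fun a => (pot_lt_repl hA.1 h4 h5 h3).not_ge (h1 _ ⟨⟨repl_comm hA.1 h4,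
    fun C c => (hA.2 C c).trans (card_le_repl hA.1 h4 h5)⟩, a⟩)
  rw [← Subgroup.commutator_eq_bot_iff_le_centralizer, eq_bot_iff]
  refine le_of_le_sup_commutator (hG.to_subgroup _) (hG.to_subgroup A) (Subgroup.normalizer_commutator_ge_right D A)
    Subgroup.le_normalizer_of_normal Subgroup.le_normalizer_of_normal (le_sup_right.trans'
      ((Subgroup.commutator_mono h6 le_rfl).trans (commutator_sup_le ?_ ?_ ?_ ?_)))
  · exact (cm_le hb).trans (Subgroup.normalizer_commutator_ge_left _ _)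
  · exact inf_le_left.trans (Subgroup.normalizer_commutator_ge_right _ _)
  · exact Subgroup.commutator_mono (cm_le hb) le_rfl
  · exact ((Subgroup.commutator_mono inf_le_left le_rfl).trans
      (Subgroup.commutator_self_eq_bot_iff.mpr hA.1).le).trans bot_le

end H26
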