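import Mathlib
import Cfsg.Agent.H26.CharP

/-!
# Transfer for W-triples with abelian quotient

`exists_normal_of_wtriple`: `⁅M, M⁆ ≤ H ≤ M` and `M ⊓ M^g ≤ H` for all `g ∉ M` give a normal subgroup `N ≥ G'`
with `N ⊓ M = H`.  `commutator_le_of_sup_zpowers`, `sup_zpowers_eq_of_max`, `max_of_prime_relIndex`.
-/

namespace H26

variable {G : Type*} [Group G]

theorem commutator_le_of_sup_zpowers {H : Subgroup G} {y : G}
    (hy : y ∈ Subgroup.normalizer (H : Set G)) :
    ⁅H ⊔ Subgroup.zpowers y, H ⊔ Subgroup.zpowers y⁆ ≤ H := by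
  have h1 := Subgroup.zpowers_le.mpr hy
  have h2 : H ⊔ Subgroup.zpowers y ≤ Subgroup.normalizer (H : Set G) := sup_le Subgroup.le_normalizer h1
  refine commutator_sup_le Subgroup.le_normalizer h1 (commutator_le_of_le_normalizer h2)
    (commutator_sup_le' Subgroup.le_normalizer h1 (commutator_le_of_le_normalizer' h1) ?_)
  rw [Subgroup.commutator_eq_bot_iff_le_centralizer.mpr
    (Subgroup.le_centralizer_iff_isMulCommutative.mpr inferInstance)]
  exact bot_le

theorem sup_zpowers_eq_of_max {H M : Subgroup G} (h : H ≤ M) (hm : ∀ K, H ≤ K → K ≤ M → K = H ∨ K = M)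
    {y : G} (h1 : y ∈ M) (h2 : y ∉ H) : H ⊔ Subgroup.zpowers y = M :=
  (hm _ le_sup_left (sup_le h (Subgroup.zpowers_le.mpr h1))).resolve_left fun a =>
    h2 (a.le (Subgroup.mem_sup_right (Subgroup.mem_zpowers y)))

theorem max_of_prime_relIndex {H M : Subgroup G} (h : (H.relIndex M).Prime) (K : Subgroup G)
    (h1 : H ≤ K) (h2 : K ≤ M) : K = H ∨ K = M := by
  rw [← Subgroup.relIndex_mul_relIndex H K M h1 h2, Nat.prime_mul_iff] at h
  exact h.symm.imp (fun a => le_antisymm (Subgroup.relIndex_eq_one.mp a.2) h1)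
    fun a => le_antisymm h2 (Subgroup.relIndex_eq_one.mp a.2)

theorem max_of_isCoatom {H M : Subgroup G} (h : IsCoatom (H.subgroupOf M)) (K : Subgroup G)
    (h1 : H ≤ K) (h2 : K ≤ M) : K = H ∨ K = M := by
  rcases h.le_iff.mp (Subgroup.comap_mono h1 : H.subgroupOf M ≤ K.subgroupOf M) with a | a
  · exact Or.inr (le_antisymm h2 (Subgroup.subgroupOf_eq_top.mp a))
  · exact Or.inl (le_antisymm (fun x hx => (a.le : K.subgroupOf M ≤ _) (x := ⟨x, h2 hx⟩) hx) h1)

theorem max_cj {H M : Subgroup G} (hm : ∀ K, H ≤ K → K ≤ M → K = H ∨ K = M) (g : G) (K : Subgroup G)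
    (h1 : cj(g, H) ≤ K) (h2 : K ≤ cj(g, M)) : K = cj(g, H) ∨ K = cj(g, M) := by
  have := hm cj(g⁻¹, K) (cj_le_iff_le_cj.mp h1) (by simpa only [cj_inv_cj] using cj_mono g⁻¹ h2)
  exact this.imp (fun a => by rw [← a, cj_cj_inv]) fun a => by rw [← a, cj_cj_inv]

theorem exists_normal_of_wtriple [Finite G] {H M : Subgroup G} (h : H ≤ M) (hc : ⁅M, M⁆ ≤ H)
    (hW : ∀ g ∉ M, M ⊓ cj(g, M) ≤ H) : ∃ N : Subgroup G, N.Normal ∧ commutator G ≤ N ∧ N ⊓ M = H := by
  classical
  have hn : M ≤ Subgroup.normalizer (H : Set G) :=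
    le_normalizer_of_commutator_le ((Subgroup.commutator_mono h le_rfl).trans hc)
  have hN : (H.subgroupOf M).Normal := Subgroup.normal_subgroupOf_of_le_normalizer hn
  have hcomm : IsMulCommutative (M ⧸ H.subgroupOf M) :=
    Subgroup.Normal.quotient_commutative_iff_commutator_le.mpr (by
      rw [← Subgroup.map_subtype_le_map_subtype, Subgroup.map_subgroupOf_eq_of_le h, commutator_def,
        Subgroup.map_commutator, ← MonoidHom.range_eq_map, Subgroup.range_subtype]
      exact hc)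
  let _ : CommGroup (M ⧸ H.subgroupOf M) := { mul_comm := hcomm.is_comm.comm }
  let φ := QuotientGroup.mk' (H.subgroupOf M)
  have a1 : ∀ x : M, φ x = 1 ↔ (x : G) ∈ H := fun x => QuotientGroup.eq_one_iff x
  refine ⟨(MonoidHom.transfer φ).ker, inferInstance, Abelianization.commutator_subset_ker _, ?_⟩
  suffices key : ∀ x : M, MonoidHom.transfer φ x = φ x by
    ext x
    exact ⟨fun a => (a1 ⟨x, a.2⟩).mp ((key ⟨x, a.2⟩).symm.trans a.1),
      fun a => ⟨(key ⟨x, h a⟩).trans ((a1 _).mpr a), h a⟩⟩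
  intro x
  have := Fintype.ofFinite (Quotient (MulAction.orbitRel (Subgroup.zpowers (x : G)) (G ⧸ M)))
  have b1 : (x : G) • ((1 : G) : G ⧸ M) = ((1 : G) : G ⧸ M) := by
    rw [MulAction.Quotient.smul_coe, QuotientGroup.eq]; simp
  have b2 : (Quotient.mk (MulAction.orbitRel (Subgroup.zpowers (x : G)) (G ⧸ M)) ((1 : G) : G ⧸ M)).out =
      ((1 : G) : G ⧸ M) := by
    obtain ⟨⟨_, k, rfl⟩, e⟩ :=
      Quotient.mk_out (s := MulAction.orbitRel (Subgroup.zpowers (x : G)) (G ⧸ M)) ((1 : G) : G ⧸ M)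
    exact e.symm.trans (zpow_mem (show (x : G) ∈ MulAction.stabilizer G _ from b1) k)
  rw [MonoidHom.transfer_eq_prod_quotient_orbitRel_zpowers_quot,
    Fintype.prod_eq_single (Quotient.mk _ ((1 : G) : G ⧸ M))]
  · obtain ⟨m, hm⟩ := QuotientGroup.mk_out_eq_mul M (1 : G)
    have : φ (m⁻¹ * x * m) = φ x := by
      rw [map_mul, map_mul, mul_comm, ← mul_assoc, ← map_mul, mul_inv_cancel, map_one, one_mul]
    rw [← this]
    congr 1
    ext
    simp only [b2, hm, Function.minimalPeriod_eq_one_iff_isFixedPt.mpr b1]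
    simp
  · intro q hq
    rw [a1]
    refine hW q.out.out⁻¹ (fun a => hq ?_) ⟨QuotientGroup.out_conj_pow_minimalPeriod_mem M _ q.out, ?_⟩
    · rw [← QuotientGroup.eq.mpr (by simpa using a : q.out.out⁻¹ * 1 ∈ M), QuotientGroup.out_eq', q.out_eq]
    · simpa using conj_mem_cj (g := q.out.out⁻¹) (pow_mem x.2 _)

end H26
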